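import Cfsg.Agent.H951.Move
import Cfsg.Agent.ClassicalGeometry.GUBasic
import Cfsg.Agent.S0277
import Cfsg.Agent.S0284
import Cfsg.Agent.S0837
set_option linter.all false

-- part: H951/UBridge
section
/-!
# The unitary space `F^n`, `|F| = q^2`
-/

set_option autoImplicit false
set_option linter.unusedSectionVars false
set_option linter.unusedVariables false

namespace Cfsg.Agent.H951

open Module Polynomial Cfsg

variable {F : Type*} [Field F] [Fintype F] {q n : ℕ}

theorem exists_sig (hF : Fintype.card F = q ^ 2) :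
    ∃ σ : F →+* F, (∀ a, σ a = a ^ q) ∧ (∀ a, σ (σ a) = a) ∧ σ ≠ RingHom.id F := by
  obtain ⟨σ, hσ⟩ := ClassicalGeometry.GUBasic.exists_powHom hF
  have hq := ClassicalGeometry.GUBasic.two_le hF
  refine ⟨σ, hσ, fun a => ?_, fun h => ?_⟩
  · rw [hσ, hσ, ← pow_mul, ← pow_two, ← hF, FiniteField.pow_card]
  · -- x^q = x for all x
    classical
    have h1 : ∀ x : F, x ^ q = x := fun x => by rw [← hσ, h]; rfl
    have h2 := FiniteField.X_pow_card_sub_X_natDegree_eq F (p := q) (by omega)
    have h3 : (X ^ q - X : F[X]) ≠ 0 := FiniteField.X_pow_card_sub_X_ne_zero F (by omega)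
    have h4 : (Finset.univ : Finset F).val ≤ (X ^ q - X : F[X]).roots := by
      rw [Multiset.le_iff_subset Finset.univ.nodup]
      intro x _
      rw [mem_roots h3]
      simp [h1 x]
    have h5 := Multiset.card_le_card h4
    have h6 := card_roots' (X ^ q - X : F[X])
    rw [h2] at h6
    have h7 : Fintype.card F ≤ q := by
      have : Multiset.card (Finset.univ : Finset F).val = Fintype.card F := rfl
      omega
    rw [hF] at h7
    nlinarith

lemma frm_herm {σ : F →+* F} (hσ : ∀ a, σ a = a ^ q) (h2 : ∀ a, σ (σ a) = a) (n : ℕ) :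
    Frm σ 1 (hermForm n F q) where
  add_left u v w := by
    simp only [hermForm, Pi.add_apply, add_mul, Finset.sum_add_distrib]
  smul_left a u v := by
    simp only [hermForm, Pi.smul_apply, smul_eq_mul, mul_assoc, Finset.mul_sum]
  herm u v := by
    simp only [hermForm, map_sum, map_mul, one_mul]
    refine Finset.sum_congr rfl fun i _ => ?_
    rw [← hσ (v i), h2, hσ (u i), mul_comm]
  sigma_sq := h2
  eps_ne := one_ne_zero

lemma kind_herm {σ : F →+* F} (hne : σ ≠ RingHom.id F) (n : ℕ) : Kind σ 1 (hermForm n F q) := Or.inl ⟨hne, rfl⟩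

lemma herm_single_right (hq : q ≠ 0) (u : Fin n → F) (i : Fin n) : hermForm n F q u (Pi.single i 1) = u i := by
  classical
  rw [hermForm, Finset.sum_eq_single i]
  · simp
  · intro j _ hj
    rw [Pi.single_eq_of_ne hj, zero_pow hq, mul_zero]
  · intro h; exact absurd (Finset.mem_univ i) h

lemma nd_herm (hq : q ≠ 0) : Nd (hermForm n F q) (⊤ : Submodule F (Fin n → F)) := by
  intro u _ hu
  obtain ⟨i, hi⟩ := Function.ne_iff.1 hu
  exact ⟨Pi.single i 1, trivial, by rwa [herm_single_right hq]⟩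

/-! ### numerics -/

lemma neg_pow_eq_one_iff {r : ℕ} [Fact r.Prime] (hr2 : r ≠ 2) {g : ZMod r} {i c : ℕ} (hi : i = orderOf g)
    (hi0 : 0 < i)
    (hc : c = if i % 4 = 0 then i else if i % 4 = 2 then i / 2 else 2 * i) (k : ℕ) :
    (-g) ^ k = 1 ↔ c ∣ k := by
  have h1ne : (-1 : ZMod r) ≠ 1 := by
    intro h
    have h2 : ((2 : ℕ) : ZMod r) = 0 := by push_cast; linear_combination -h
    rw [ZMod.natCast_eq_zero_iff] at h2
    exact hr2 ((Nat.prime_dvd_prime_iff_eq Fact.out Nat.prime_two).1 h2)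
  have hpow : ∀ m, g ^ m = 1 ↔ i ∣ m := fun m => by rw [hi, orderOf_dvd_iff_pow_eq_one]
  rcases Nat.even_or_odd k with hk | hk
  · rw [hk.neg_pow, hpow]
    obtain ⟨l, hl⟩ := hk
    rw [hc]
    split_ifs with h4 h2
    · rfl
    · -- i ≡ 2 mod 4 : i/2 odd
      obtain ⟨j, hj⟩ : ∃ j, i = 2 * j := ⟨i / 2, by omega⟩
      have hjo : Nat.Coprime 2 j := by
        rw [Nat.coprime_two_left, Nat.odd_iff]; omega
      have : i / 2 = j := by omega
      rw [this, hj]
      constructor
      · exact fun h => (Dvd.intro_left 2 rfl).trans h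
      · intro h
        exact Nat.Coprime.mul_dvd_of_dvd_of_dvd hjo ⟨l, by omega⟩ h
    · have hio : Nat.Coprime 2 i := by
        rw [Nat.coprime_two_left, Nat.odd_iff]; omega
      constructor
      · intro h; exact Nat.Coprime.mul_dvd_of_dvd_of_dvd hio ⟨l, by omega⟩ h
      · exact fun h => (Dvd.intro_left 2 rfl).trans h
  · rw [hk.neg_pow]
    have hk' : k % 2 = 1 := Nat.odd_iff.1 hk
    constructor
    · intro h
      have h3 : g ^ k = -1 := by linear_combination -h
      have h4 : g ^ (2 * k) = 1 := by rw [mul_comm, pow_mul, h3]; ring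
      rw [hpow] at h4
      have h5 : ¬ i ∣ k := by
        rw [← hpow, h3]; exact h1ne
      have hie : i % 2 = 0 := by
        by_contra hodd
        apply h5
        have : Nat.Coprime i 2 := by rw [Nat.coprime_two_right, Nat.odd_iff]; omega
        exact this.dvd_of_dvd_mul_left h4
      obtain ⟨j, hj⟩ : ∃ j, i = 2 * j := ⟨i / 2, by omega⟩
      rw [hj] at h4
      have hjk : j ∣ k := Nat.dvd_of_mul_dvd_mul_left two_pos h4
      have hjo : j % 2 = 1 := by
        by_contra hje
        obtain ⟨t, rfl⟩ := hjk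
        have : j * t % 2 = 0 := by
          rw [Nat.mul_mod]
          have : j % 2 = 0 := by omega
          rw [this]; simp
        omega
      have h6 : i % 4 = 2 := by omega
      rw [hc, if_neg (by omega), if_pos h6, hj]
      simpa using hjk
    · intro h
      rw [hc] at h
      split_ifs at h with h4 h2
      · exfalso
        obtain ⟨t, ht⟩ := h
        have : i * t % 2 = 0 := by
          rw [Nat.mul_mod]
          have : i % 2 = 0 := by omega
          rw [this]; simp
        omega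
      · obtain ⟨j, hj⟩ : ∃ j, i = 2 * j := ⟨i / 2, by omega⟩
        have hij : i / 2 = j := by omega
        rw [hij] at h
        have h7 : g ^ j = -1 := by
          have h8 : (g ^ j) ^ 2 = 1 := by rw [← pow_mul, mul_comm, ← hj, hpow]
          have h9 : (g ^ j - 1) * (g ^ j + 1) = 0 := by linear_combination h8
          rcases mul_eq_zero.1 h9 with h | h
          · exfalso
            have : g ^ j = 1 := by linear_combination h
            rw [hpow] at this
            have := Nat.le_of_dvd (by omega) this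
            omega
          · linear_combination h
        obtain ⟨t, rfl⟩ := h
        rw [pow_mul, h7]
        have ht : Odd t := (Nat.odd_mul.1 hk).2
        rw [ht.neg_one_pow, neg_neg]
      · exfalso
        obtain ⟨t, ht⟩ := h
        rw [mul_assoc] at ht
        omega

/-- `r` divides `q^k - (-1)^k` iff `c ∣ k`. -/
lemma dvd_iff_c {r : ℕ} [Fact r.Prime] (hr2 : r ≠ 2) {i c : ℕ} (hq : 0 < q) (hi : i = orderOf (q : ZMod r))
    (hi0 : 0 < i) (hc : c = if i % 4 = 0 then i else if i % 4 = 2 then i / 2 else 2 * i) {k : ℕ} (hk : 0 < k) :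
    (r ∣ if Even k then q ^ k - 1 else q ^ k + 1) ↔ c ∣ k := by
  rw [← neg_pow_eq_one_iff hr2 hi hi0 hc k]
  rw [← ZMod.natCast_eq_zero_iff]
  split_ifs with he
  · rw [he.neg_pow, Nat.cast_sub (Nat.one_le_pow _ _ hq)]
    push_cast
    rw [sub_eq_zero]
  · rw [Nat.not_even_iff_odd] at he
    rw [he.neg_pow]
    push_cast
    constructor
    · intro h; linear_combination -h
    · intro h; linear_combination -h

/-- The order of `q^2` modulo `r`. -/
lemma ord_sq {r : ℕ} [Fact r.Prime] {i : ℕ} (hF : Fintype.card F = q ^ 2) (hi : i = orderOf (q : ZMod r))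
    (hi0 : 0 < i) : orderOf (Fintype.card F : ZMod r) = if Even i then i / 2 else i := by
  rw [hF]
  push_cast
  have h1 : orderOf ((q : ZMod r) ^ 2) = i / Nat.gcd i 2 := by rw [hi, orderOf_pow' _ two_ne_zero]
  rw [h1]
  split_ifs with he
  · obtain ⟨j, hj⟩ := he
    have : Nat.gcd i 2 = 2 := Nat.gcd_eq_right ⟨j, by omega⟩
    rw [this]
  · have : Nat.gcd i 2 = 1 := by
      rw [Nat.not_even_iff_odd] at he
      exact Nat.coprime_two_right.2 he
    rw [this, Nat.div_one]

lemma blockNum_unitary {r : ℕ} [Fact r.Prime] (hr2 : r ≠ 2) {σ : F →+* F} (hσ : ∀ a, σ a = a ^ q)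
    (h2 : ∀ a, σ (σ a) = a) {p : ℕ} [Fact p.Prime] [CharP F p] (hF : Fintype.card F = q ^ 2) {i c : ℕ}
    (hi : i = orderOf (q : ZMod r)) (hi0 : 0 < i)
    (hc : c = if i % 4 = 0 then i else if i % 4 = 2 then i / 2 else 2 * i) :
    BlockNum σ p r (orderOf (Fintype.card F : ZMod r)) c := by
  have hq := ClassicalGeometry.GUBasic.two_le hF
  rw [ord_sq hF hi hi0]
  by_cases h4 : i % 4 = 2
  · right
    have hc' : c = i / 2 := by rw [hc, if_neg (by omega), if_pos h4]
    refine ⟨by rw [hc', if_pos (Nat.even_iff.2 (by omega))], ?_⟩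
    -- q = p^e
    obtain ⟨m, hpp, hm⟩ := FiniteField.card F p
    have hqp : ∃ e, q = p ^ e := by
      have : q ∣ p ^ (m : ℕ) := by rw [← hm, hF]; exact Dvd.intro_left q (pow_two q).symm
      obtain ⟨e, -, he⟩ := (Nat.dvd_prime_pow hpp).1 this
      exact ⟨e, he⟩
    obtain ⟨e, he⟩ := hqp
    have hco : c % 2 = 1 := by omega
    refine ⟨e * c, fun a => ?_, ?_⟩
    · rw [pow_mul, ← he]
      have h3 : ∀ j : ℕ, ∀ a : F, a ^ (q ^ (2 * j)) = a := by
        intro j a
        rw [pow_mul, ← hF, FiniteField.pow_card_pow]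
      obtain ⟨j, hj⟩ : ∃ j, c = 2 * j + 1 := ⟨c / 2, by omega⟩
      rw [hj, pow_succ, pow_mul a, h3, hσ]
    · rw [pow_mul, ← he]
      have h5 := (dvd_iff_c (q := q) hr2 (by omega) hi hi0 hc (k := c) (by omega)).2 dvd_rfl
      rwa [if_neg (Nat.not_even_iff.2 hco)] at h5
  · left
    by_cases h0 : i % 4 = 0
    · rw [hc, if_pos h0, if_pos (Nat.even_iff.2 (by omega))]
      omega
    · rw [hc, if_neg h0, if_neg h4, if_neg (by rw [Nat.not_even_iff]; omega)]

end Cfsg.Agent.H951
end

-- part: H951/UElt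
section
/-!
# Elements of prime order of the unitary groups
-/

set_option autoImplicit false
set_option linter.unusedSectionVars false
set_option linter.unusedVariables false

namespace Cfsg.Agent.H951

open Module Polynomial Cfsg

variable {F V : Type*} [Field F] [Fintype F] {q n : ℕ} [AddCommGroup V] [Module F V] [FiniteDimensional F V]
variable {σ : F →+* F} {B : V → V → F} {W : Submodule F V} {r : ℕ}

lemma natCast_ne_zero_of_ord {q r : ℕ} [Fact r.Prime] {i : ℕ} (hi : i = orderOf (q : ZMod r)) (hi0 : 0 < i) :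
    (q : ZMod r) ≠ 0 := by
  intro h
  have h1 : (q : ZMod r) ^ i = 1 := by rw [hi]; exact pow_orderOf_eq_one _
  rw [h, zero_pow hi0.ne'] at h1
  exact zero_ne_one h1

theorem card_norm_one (hF : Fintype.card F = q ^ 2) (hσ : ∀ a, σ a = a ^ q) (hne : σ ≠ RingHom.id F)
    (hB : Frm σ 1 B) (hW : Nd B W) :
    Nat.card {v : V // v ∈ W ∧ B v v = 1} = (if Even (finrank F W) then q ^ (finrank F W - 1) * (q ^ finrank F W - 1)
      else q ^ (finrank F W - 1) * (q ^ finrank F W + 1)) := by
  have hq := ClassicalGeometry.GUBasic.two_le hF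
  obtain ⟨φ, hφ⟩ := exists_equiv_of_top hB (frm_herm hσ hB.sigma_sq (finrank F W)) (Or.inl ⟨hne, rfl⟩)
    (kind_herm hne _) hW (nd_herm (by omega)) (by simp)
  rw [← Cfsg.Agent.S0284.result hF (finrank F W)]
  refine (Nat.card_congr ?_).symm
  refine (φ.toEquiv.subtypeEquiv (q := fun w : W => B (w : V) (w : V) = 1) fun v => ?_).trans ?_
  · rw [← hφ]; rfl
  · exact {
      toFun := fun w => ⟨w.1.1, w.1.2, w.2⟩
      invFun := fun v => ⟨⟨v.1, v.2.1⟩, v.2.2⟩
      left_inv := fun w => rfl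
      right_inv := fun v => rfl }

/-- `c` divides the dimension of a nondegenerate invariant subspace without fixed vectors. -/
theorem dvd_finrank_unitary [Fact r.Prime] (hr2 : r ≠ 2) (hr : (r : F) ≠ 0) (hF : Fintype.card F = q ^ 2)
    (hσ : ∀ a, σ a = a ^ q) (hne : σ ≠ RingHom.id F) (hB : Frm σ 1 B) {i c : ℕ}
    (hi : i = orderOf (q : ZMod r)) (hi0 : 0 < i)
    (hc : c = if i % 4 = 0 then i else if i % 4 = 2 then i / 2 else 2 * i) {x : Module.End F V}
    (hx : Isom B x) (hxr : x ^ r = 1) (W : Submodule F V) (hWi : Inv x W) (hW : Nd B W) (hWc : W ≤ cm x) :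
    c ∣ finrank F W := by
  have hrP : r.Prime := Fact.out
  have hq := ClassicalGeometry.GUBasic.two_le hF
  rcases Nat.eq_zero_or_pos (finrank F W) with h0 | hpos
  · rw [h0]; exact dvd_zero c
  have : Finite V := Module.finite_of_finite F
  rw [← dvd_iff_c (q := q) hr2 (by omega) hi hi0 hc hpos]
  have h1 := card_modEq hxr {v : V | v ∈ W ∧ B v v = 1} (fun v hv => ⟨hWi v hv.1, by
    show B (x v) (x v) = 1
    rw [hx]; exact hv.2⟩)
  have h2 : Nat.card {v : V // v ∈ {v : V | v ∈ W ∧ B v v = 1} ∧ x v = v} = 0 := by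
    rw [Nat.card_eq_zero]
    left
    refine ⟨fun v => ?_⟩
    obtain ⟨⟨hv1, hv2⟩, hv3⟩ := v.2
    have h3 : (v : V) ∈ fx x ⊓ cm x := ⟨mem_fx.2 hv3, hWc hv1⟩
    rw [(isCompl_fx_cm hr hxr).inf_eq_bot, Submodule.mem_bot] at h3
    rw [h3, hB.zero_left] at hv2
    exact zero_ne_one hv2
  rw [h2] at h1
  have h4 : r ∣ Nat.card {v : V // v ∈ W ∧ B v v = 1} := (Nat.modEq_zero_iff_dvd.1 h1)
  rw [card_norm_one hF hσ hne hB hW] at h4
  have h5 : ¬ r ∣ q ^ (finrank F W - 1) := by
    intro h
    have := hrP.dvd_of_dvd_pow h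
    exact natCast_ne_zero_of_ord hi hi0 ((ZMod.natCast_eq_zero_iff _ _).2 this)
  split_ifs at h4 with he
  · rw [if_pos he]; exact (hrP.dvd_mul.1 h4).resolve_left h5
  · rw [if_neg he]; exact (hrP.dvd_mul.1 h4).resolve_left h5

/-- A matrix of `GU_n` as an isometry. -/
lemma isom_toLin' {M : Matrix (Fin n) (Fin n) F}
    (hM : ∀ u v, hermForm n F q (M.mulVec u) (M.mulVec v) = hermForm n F q u v) :
    Isom (hermForm n F q) (Matrix.toLin' M) := by
  intro u v
  rw [Matrix.toLin'_apply, Matrix.toLin'_apply]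
  exact hM u v

lemma pow_toLin' {ι : Type*} [Fintype ι] [DecidableEq ι] (M : Matrix ι ι F) (k : ℕ) :
    (Matrix.toLin' M) ^ k = Matrix.toLin' (M ^ k) := (Matrix.toLin'_pow M k).symm

/-- Elements of order `r` of `GU_c`. -/
theorem exists_block_unitary [Fact r.Prime] (hr2 : r ≠ 2) (hF : Fintype.card F = q ^ 2) {i c : ℕ}
    (hi : i = orderOf (q : ZMod r)) (hi0 : 0 < i)
    (hc : c = if i % 4 = 0 then i else if i % 4 = 2 then i / 2 else 2 * i) :
    ∃ y : Module.End F (Fin c → F), Isom (hermForm c F q) y ∧ y ^ r = 1 ∧ y ≠ 1 := by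
  have hq := ClassicalGeometry.GUBasic.two_le hF
  have hrP : r.Prime := Fact.out
  have hc0 : 0 < c := by
    rw [hc]; split_ifs <;> omega
  have h1 : r ∣ Nat.card (Cfsg.GU c F q) := by
    rw [Cfsg.Agent.S0277.result hF c]
    refine Dvd.dvd.mul_left ?_ _
    refine dvd_trans ?_ (Finset.dvd_prod_of_mem _ (Finset.mem_range.2 (Nat.sub_lt hc0 one_pos)))
    have h2 := (dvd_iff_c (q := q) hr2 (by omega) hi hi0 hc (k := c) hc0).2 dvd_rfl
    have e1 : c - 1 + 1 = c := by omega
    rw [e1]
    rcases Nat.even_or_odd c with he | ho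
    · rw [if_pos he] at h2
      rw [if_neg]
      · exact h2
      · rw [Nat.not_even_iff_odd]; obtain ⟨t, ht⟩ := he; exact ⟨t - 1, by omega⟩
    · rw [if_neg (Nat.not_even_iff_odd.2 ho)] at h2
      rw [if_pos]
      · exact h2
      · obtain ⟨t, ht⟩ := ho; exact ⟨t, by omega⟩
  have : Finite (Cfsg.GU c F q) := inferInstance
  obtain ⟨g, hg⟩ := exists_prime_orderOf_dvd_card' r h1
  set M : Matrix (Fin c) (Fin c) F := ((g : Matrix.GeneralLinearGroup (Fin c) F) : Matrix (Fin c) (Fin c) F) with hM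
  have hgr : g ^ r = 1 := by rw [← hg]; exact pow_orderOf_eq_one g
  have hMr : M ^ r = 1 := by
    have h3 : (((g ^ r : Cfsg.GU c F q) : Matrix.GeneralLinearGroup (Fin c) F) : Matrix (Fin c) (Fin c) F) = M ^ r := by
      rw [Subgroup.coe_pow, Units.val_pow_eq_pow_val]
    rw [← h3, hgr]; rfl
  refine ⟨Matrix.toLin' M, isom_toLin' g.2, ?_, ?_⟩
  · rw [pow_toLin', hMr, Matrix.toLin'_one]; rfl
  · intro h
    have h4 : M = 1 := by
      apply Matrix.toLin'.injective
      rw [h, Matrix.toLin'_one]; rfl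
    have h5 : g = 1 := Subtype.ext (Units.ext h4)
    rw [h5, orderOf_one] at hg
    exact hrP.one_lt.ne hg

/-- Elements `x` with `dim [V, x] = c M` on every nondegenerate hermitian space. -/
theorem exists_elt_unitary [Fact r.Prime] (hr2 : r ≠ 2) (hr : (r : F) ≠ 0) (hF : Fintype.card F = q ^ 2)
    (hσ : ∀ a, σ a = a ^ q) (hne : σ ≠ RingHom.id F) (hB : Frm σ 1 B) (hV : Nd B (⊤ : Submodule F V)) {i c : ℕ}
    (hi : i = orderOf (q : ZMod r)) (hi0 : 0 < i)
    (hc : c = if i % 4 = 0 then i else if i % 4 = 2 then i / 2 else 2 * i) {M : ℕ} (hM : c * M ≤ finrank F V) :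
    ∃ x : Module.End F V, Isom B x ∧ x ^ r = 1 ∧ finrank F ↥(cm x) = c * M := by
  have hq := ClassicalGeometry.GUBasic.two_le hF
  refine exists_elt hB (Or.inl ⟨hne, rfl⟩) hV hr (fun h => absurd h hne) ?_ M hM
  intro U hU hUc
  obtain ⟨y, hy, hyr, hy1⟩ := exists_block_unitary hr2 hF hi hi0 hc
  have hB' := frm_herm hσ hB.sigma_sq c
  refine exists_blk hB hB' (Or.inl ⟨hne, rfl⟩) (kind_herm hne c) (nd_herm (by omega)) hr ?_ hy hyr hy1 hU
    (by rw [hUc]; simp)
  intro y hy hyr
  have h1 := hy.nd_inf_cm hB' hr hyr (U := ⊤) (fun _ _ => trivial) (nd_herm (by omega))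
  rw [top_inf_eq] at h1
  have h2 : Inv y (cm y) := by
    intro v hv
    obtain ⟨w, rfl⟩ := mem_cm.1 hv
    exact mem_cm.2 ⟨y w, by rw [map_sub]⟩
  have h3 := dvd_finrank_unitary hr2 hr hF hσ hne hB' hi hi0 hc hy hyr _ h2 h1 le_rfl
  have h4 : finrank F (Fin c → F) = c := by simp
  rw [h4]
  exact h3

end Cfsg.Agent.H951
end

-- part: H951/UMat
section
/-!
# Matrices of `SU_n(q)` and isometries; the number of nondegenerate `m`-spaces
-/

set_option autoImplicit false
set_option linter.unusedSectionVars false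
set_option linter.unusedVariables false

namespace Cfsg.Agent.H951

open Module Polynomial Cfsg

variable {F : Type*} [Field F] [Fintype F] {q n r : ℕ}

lemma isom_SU {x : Matrix.SpecialLinearGroup (Fin n) F} (hx : x ∈ Cfsg.SU n F q) :
    Isom (hermForm n F q) (Matrix.toLin' (x : Matrix (Fin n) (Fin n) F)) := by
  intro u v
  rw [Matrix.toLin'_apply, Matrix.toLin'_apply]
  exact hx u v

/-- An isometry of determinant 1 is an element of `SU_n`. -/
lemma exists_SU {T : Module.End F (Fin n → F)} (hT : Isom (hermForm n F q) T) (hd : LinearMap.det T = 1) :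
    ∃ x : Matrix.SpecialLinearGroup (Fin n) F, x ∈ Cfsg.SU n F q ∧ Matrix.toLin' (x : Matrix (Fin n) (Fin n) F) = T := by
  refine ⟨⟨LinearMap.toMatrix' T, by rw [LinearMap.det_toMatrix']; exact hd⟩, ?_, ?_⟩
  · intro u v
    show hermForm n F q ((LinearMap.toMatrix' T).mulVec u) ((LinearMap.toMatrix' T).mulVec v) = _
    rw [LinearMap.toMatrix'_mulVec, LinearMap.toMatrix'_mulVec]
    exact hT u v
  · exact Matrix.toLin'_toMatrix' T

/-- The determinant of an isometry. -/
lemma det_isom (hF : Fintype.card F = q ^ 2) {T : Module.End F (Fin n → F)} (hT : Isom (hermForm n F q) T) :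
    LinearMap.det T ^ (q + 1) = 1 := by
  rw [← LinearMap.det_toMatrix']
  refine ClassicalGeometry.GUBasic.det_pow hF ?_
  intro u v
  rw [LinearMap.toMatrix'_mulVec, LinearMap.toMatrix'_mulVec]
  exact hT u v

lemma det_eq_one_of_coprime (hF : Fintype.card F = q ^ 2) {T : Module.End F (Fin n → F)}
    (hT : Isom (hermForm n F q) T) (hTr : T ^ r = 1) (hco : Nat.Coprime r (q + 1)) : LinearMap.det T = 1 := by
  have h1 := det_isom hF hT
  have h2 : LinearMap.det T ^ r = 1 := by rw [← map_pow, hTr, map_one]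
  have h3 : orderOf (LinearMap.det T) ∣ Nat.gcd r (q + 1) :=
    Nat.dvd_gcd (orderOf_dvd_of_pow_eq_one h2) (orderOf_dvd_of_pow_eq_one h1)
  rw [hco, Nat.dvd_one, orderOf_eq_one_iff] at h3
  exact h3

/-- A linear equivalence preserving the form gives an element of `GU_n`. -/
lemma exists_GU_of_equiv (T : (Fin n → F) ≃ₗ[F] (Fin n → F))
    (hT : ∀ u v, hermForm n F q (T u) (T v) = hermForm n F q u v) :
    ∃ g : Cfsg.GU n F q, Matrix.toLin' (((g : Matrix.GeneralLinearGroup (Fin n) F) : Matrix (Fin n) (Fin n) F)) =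
      (T : (Fin n → F) →ₗ[F] (Fin n → F)) := by
  let A : Matrix.GeneralLinearGroup (Fin n) F :=
    ⟨LinearMap.toMatrix' (T : (Fin n → F) →ₗ[F] (Fin n → F)), LinearMap.toMatrix' (T.symm : (Fin n → F) →ₗ[F] (Fin n → F)),
      by rw [← LinearMap.toMatrix'_comp]; simp, by rw [← LinearMap.toMatrix'_comp]; simp⟩
  refine ⟨⟨A, ?_⟩, ?_⟩
  · intro u v
    show hermForm n F q ((LinearMap.toMatrix' (T : (Fin n → F) →ₗ[F] (Fin n → F))).mulVec u)
      ((LinearMap.toMatrix' (T : (Fin n → F) →ₗ[F] (Fin n → F))).mulVec v) = _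
    rw [LinearMap.toMatrix'_mulVec, LinearMap.toMatrix'_mulVec]
    exact hT u v
  · exact Matrix.toLin'_toMatrix' _

/-- The number of nondegenerate `m`-spaces. -/
theorem card_nd_unitary (hF : Fintype.card F = q ^ 2) {m : ℕ} (hm : m ≤ n) :
    Nat.card {W : Submodule F (Fin n → F) // finrank F ↥W = m ∧ Nd (hermForm n F q) W} *
      (Nat.card (Cfsg.GU m F q) * Nat.card (Cfsg.GU (n - m) F q)) = Nat.card (Cfsg.GU n F q) := by
  have hq := ClassicalGeometry.GUBasic.two_le hF
  obtain ⟨σ, hσ, h2, hne⟩ := exists_sig hF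
  have hB := frm_herm hσ h2 n
  have hV : Nd (hermForm n F q) (⊤ : Submodule F (Fin n → F)) := nd_herm (by omega)
  obtain ⟨W₀, -, hW₀, hW₀m⟩ := exists_nd_sub hB (kind_herm hne n) hV (k := m) (by simpa using hm)
    (fun h => absurd h hne)
  have hnd : ∀ u ∈ W₀, (∀ v ∈ W₀, hermForm n F q u v = 0) → u = 0 := by
    intro u hu h
    by_contra h0
    obtain ⟨v, hv, huv⟩ := hW₀ u hu h0
    exact huv (h v hv)
  obtain ⟨e⟩ := Cfsg.Agent.S0837.result hF n m hm W₀ hW₀m hnd
  have h3 := Nat.card_congr e.toEquiv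
  rw [Nat.card_prod] at h3
  rw [← h3]
  have : Finite (Cfsg.GU n F q) := inferInstance
  have hlin : ∀ g : Cfsg.GU n F q, Function.Injective
      (Matrix.toLin' (((g : Matrix.GeneralLinearGroup (Fin n) F) : Matrix (Fin n) (Fin n) F))) := by
    intro g
    rw [← LinearMap.ker_eq_bot, LinearMap.ker_eq_bot']
    intro v hv
    have h4 : (((g : Matrix.GeneralLinearGroup (Fin n) F)⁻¹ : Matrix.GeneralLinearGroup (Fin n) F) :
        Matrix (Fin n) (Fin n) F).mulVec ((((g : Matrix.GeneralLinearGroup (Fin n) F) : Matrix (Fin n) (Fin n) F)).mulVec v)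
        = v := by
      rw [Matrix.mulVec_mulVec, ← Units.val_mul, inv_mul_cancel, Units.val_one, Matrix.one_mulVec]
    rw [Matrix.toLin'_apply] at hv
    rw [hv, Matrix.mulVec_zero] at h4
    exact h4.symm
  have hiso : ∀ g : Cfsg.GU n F q, ∀ u v, hermForm n F q
      (Matrix.toLin' (((g : Matrix.GeneralLinearGroup (Fin n) F) : Matrix (Fin n) (Fin n) F)) u)
      (Matrix.toLin' (((g : Matrix.GeneralLinearGroup (Fin n) F) : Matrix (Fin n) (Fin n) F)) v) = hermForm n F q u v :=
    fun g u v => g.2 u v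
  let f : Cfsg.GU n F q → {W : Submodule F (Fin n → F) // finrank F ↥W = m ∧ Nd (hermForm n F q) W} := fun g =>
    ⟨W₀.map (Matrix.toLin' (((g : Matrix.GeneralLinearGroup (Fin n) F) : Matrix (Fin n) (Fin n) F))), by
      constructor
      · rw [← hW₀m]
        exact (Submodule.equivMapOfInjective _ (hlin g) W₀).finrank_eq.symm
      · rintro _ ⟨u, hu, rfl⟩ hu0
        have h0 : u ≠ 0 := by rintro rfl; exact hu0 (map_zero _)
        obtain ⟨v, hv, huv⟩ := hW₀ u hu h0
        exact ⟨_, ⟨v, hv, rfl⟩, by rw [hiso]; exact huv⟩⟩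
  refine card_mul_of_fiber _ f ?_ ?_
  · rintro ⟨W, hWm, hW⟩
    obtain ⟨T, hT, hTW⟩ := exists_move hB (kind_herm hne n) hV hW hW₀ (by rw [hWm, hW₀m])
    obtain ⟨g, hg⟩ := exists_GU_of_equiv T hT
    refine ⟨g, Subtype.ext ?_⟩
    show W₀.map _ = W
    rw [hg, hTW]
  · intro a b
    rw [Subgroup.mem_subgroupOf]
    have key : ∀ g : Cfsg.GU n F q, ∀ v, Matrix.toLin' (((g : Matrix.GeneralLinearGroup (Fin n) F) : Matrix (Fin n) (Fin n) F)) v
        = ((g : Matrix.GeneralLinearGroup (Fin n) F) : Matrix (Fin n) (Fin n) F).mulVec v := fun g v => rfl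
    constructor
    · intro h v
      have h5 : W₀.map (Matrix.toLin' (((a : Matrix.GeneralLinearGroup (Fin n) F) : Matrix (Fin n) (Fin n) F))) =
        W₀.map (Matrix.toLin' (((b : Matrix.GeneralLinearGroup (Fin n) F) : Matrix (Fin n) (Fin n) F))) :=
        congrArg Subtype.val h
      have h6 : (glToMat (Fin n) F) ((a⁻¹ * b : Cfsg.GU n F q) : Matrix.GeneralLinearGroup (Fin n) F) =
        (((a : Matrix.GeneralLinearGroup (Fin n) F)⁻¹ : Matrix.GeneralLinearGroup (Fin n) F) : Matrix (Fin n) (Fin n) F) *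
        ((b : Matrix.GeneralLinearGroup (Fin n) F) : Matrix (Fin n) (Fin n) F) := rfl
      rw [h6, ← Matrix.mulVec_mulVec]
      constructor
      · intro hv
        have h7 : Matrix.toLin' (((b : Matrix.GeneralLinearGroup (Fin n) F) : Matrix (Fin n) (Fin n) F)) v ∈
          W₀.map (Matrix.toLin' (((a : Matrix.GeneralLinearGroup (Fin n) F) : Matrix (Fin n) (Fin n) F))) := by
          rw [h5]; exact ⟨v, hv, rfl⟩
        obtain ⟨w, hw, hwv⟩ := h7
        rw [key, key] at hwv
        rw [← hwv, Matrix.mulVec_mulVec, ← Units.val_mul, inv_mul_cancel, Units.val_one, Matrix.one_mulVec]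
        exact hw
      · intro hv
        have h7 : Matrix.toLin' (((b : Matrix.GeneralLinearGroup (Fin n) F) : Matrix (Fin n) (Fin n) F)) v ∈
          W₀.map (Matrix.toLin' (((b : Matrix.GeneralLinearGroup (Fin n) F) : Matrix (Fin n) (Fin n) F))) := by
          rw [← h5]
          refine ⟨_, hv, ?_⟩
          rw [key, key, Matrix.mulVec_mulVec, ← Units.val_mul, mul_inv_cancel, Units.val_one, Matrix.one_mulVec]
        obtain ⟨w, hw, hwv⟩ := h7
        rw [← hlin b hwv]
        exact hw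
    · intro h
      have h' : ∀ v, v ∈ (W₀ : Set (Fin n → F)) ↔ ((((a : Matrix.GeneralLinearGroup (Fin n) F)⁻¹ :
        Matrix.GeneralLinearGroup (Fin n) F) : Matrix (Fin n) (Fin n) F) *
        ((b : Matrix.GeneralLinearGroup (Fin n) F) : Matrix (Fin n) (Fin n) F)).mulVec v ∈ (W₀ : Set (Fin n → F)) := h
      apply Subtype.ext
      show W₀.map (Matrix.toLin' _) = W₀.map (Matrix.toLin' _)
      symm
      apply Submodule.eq_of_le_of_finrank_eq
      · rintro _ ⟨v, hv, rfl⟩
        refine ⟨_, (h' v).1 hv, ?_⟩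
        rw [key, key, Matrix.mulVec_mulVec, ← mul_assoc, ← Units.val_mul, mul_inv_cancel, Units.val_one, one_mul]
      · rw [← (Submodule.equivMapOfInjective _ (hlin a) W₀).finrank_eq,
          ← (Submodule.equivMapOfInjective _ (hlin b) W₀).finrank_eq]

end Cfsg.Agent.H951
end
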